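import Cfsg.Agent.H659.Rs.Box
import Cfsg.Agent.H159.SpEnd
import Cfsg.Agent.H16.PSp4.Bridge
import Cfsg.Agent.LieClassical.SympCount

/-!
# S3691, `PSp_6(2^f)`, `PSp_8(2^f)`: actions by isometries on nondegenerate subspaces (helper505)

* `exists_hom` : a group acting by isometries on a nondegenerate alternating space of dimension `2 * k` maps to `spGL k F`;
* `card_spGL_one` : `|Sp_2(q)| = q (q^2 - 1)`;
* `ortho` : the orthogonal complement of a nondegenerate plane.
-/

set_option autoImplicit false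
set_option linter.unusedSectionVars false

open Cfsg Cfsg.Geo Module Cfsg.Agent.ClassicalGeometry.SympBasic
open scoped MatrixGroups Matrix

namespace Cfsg.Agent.H505.Rs

section hom

variable {F U H : Type*} [Field F] [AddCommGroup U] [Module F U] [FiniteDimensional F U] [Group H] {k : ℕ}

/-- a group of isometries as a subgroup of `spGL` -/
theorem exists_hom (B : LinearMap.BilinForm F U) (hA : B.IsAlt) (hB : B.Nondegenerate) (hn : finrank F U = 2 * k)
    (ρ : H →* Module.End F U) (hρ : ∀ h x y, B (ρ h x) (ρ h y) = B x y) :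
    ∃ φ : H →* GL (Fin k ⊕ Fin k) F, (∀ h, φ h ∈ spGL k F) ∧ ∀ h, φ h = 1 ↔ ρ h = 1 := by
  obtain ⟨b, hb⟩ := H159.exists_symp_basis B hA hB hn
  let ψ : Module.End F U →* Matrix (Fin k ⊕ Fin k) (Fin k ⊕ Fin k) F :=
    MonoidHomClass.toMonoidHom (LinearMap.toMatrixAlgEquiv b)
  have hψ : Function.Injective ψ := (LinearMap.toMatrixAlgEquiv b).injective
  let φ : H →* GL (Fin k ⊕ Fin k) F := (Units.map ψ).comp ρ.toHomUnits
  have hφ : ∀ h, (φ h).1 = ψ (ρ h) := fun h => rfl
  have hform : ∀ x y : U, sympForm k F (b.repr x) (b.repr y) = - B x y := by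
    intro x y
    rw [LinearMap.BilinForm.apply_eq_dotProduct_toMatrix_mulVec b B x y, hb, sympForm_def, Matrix.neg_mulVec,
      dotProduct_neg, neg_neg]
  refine ⟨φ, ?_, ?_⟩
  · intro h u v
    obtain ⟨x, hx⟩ := b.equivFun.surjective u
    obtain ⟨y, hy⟩ := b.equivFun.surjective v
    have hx' : u = b.repr x := hx.symm
    have hy' : v = b.repr y := hy.symm
    have h1 : ∀ z : U, (glToMat (Fin k ⊕ Fin k) F (φ h)) *ᵥ (b.repr z) = b.repr (ρ h z) := fun z =>
      LinearMap.toMatrix_mulVec_repr b b (ρ h) z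
    rw [hx', hy', h1, h1, hform, hform, hρ]
  · intro h
    constructor
    · intro h1
      apply hψ
      rw [← hφ, h1, map_one, Units.val_one]
    · intro h1
      apply Units.ext
      rw [hφ, h1, map_one, Units.val_one]

end hom

theorem card_spGL_one {F : Type*} [Field F] [Fintype F] :
    Nat.card (spGL 1 F) = Fintype.card F * (Fintype.card F ^ 2 - 1) := by
  rw [Nat.card_congr (H16.PSp4.toSymp 1 F).toEquiv, LieClassical.SympCount.card_symplecticGroup]
  simp

section ortho

variable {F : Type*} [Field F] {m : ℕ}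

/-- the form -/
abbrev bil (m : ℕ) (F : Type*) [Field F] : LinearMap.BilinForm F (Fin m ⊕ Fin m → F) := sympBilin m F

theorem restrict_nd {W : Submodule F (Fin m ⊕ Fin m → F)} (hW : IsNondegenerateOn (sympForm m F) W) :
    (LinearMap.BilinForm.restrict (bil m F) W).Nondegenerate := by
  constructor
  · intro x hx
    by_contra hne
    obtain ⟨-, y, hy, h⟩ := hW x x.2 (fun h0 => hne (Subtype.ext h0))
    exact h (hx ⟨y, hy⟩)
  · intro x hx
    by_contra hne
    obtain ⟨⟨y, hy, h⟩, -⟩ := hW x x.2 (fun h0 => hne (Subtype.ext h0))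
    exact h (hx ⟨y, hy⟩)

/-- the orthogonal complement -/
abbrev Orth (W : Submodule F (Fin m ⊕ Fin m → F)) : Submodule F (Fin m ⊕ Fin m → F) :=
  LinearMap.BilinForm.orthogonal (bil m F) W

theorem mem_Orth {W : Submodule F (Fin m ⊕ Fin m → F)} {x : Fin m ⊕ Fin m → F} :
    x ∈ Orth W ↔ ∀ w ∈ W, sympForm m F w x = 0 := Iff.rfl

theorem isRefl : (bil m F).IsRefl :=
  (sympBilin_isAlt (m := m) (F := F)).isRefl

theorem isCompl_Orth {W : Submodule F (Fin m ⊕ Fin m → F)} (hW : IsNondegenerateOn (sympForm m F) W) :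
    IsCompl W (Orth W) :=
  LinearMap.BilinForm.isCompl_orthogonal_of_restrict_nondegenerate isRefl (restrict_nd hW)

theorem finrank_Orth {W : Submodule F (Fin m ⊕ Fin m → F)} (h2 : finrank F W = 2) :
    finrank F (Orth W) = 2 * (m - 1) := by
  have h1 := LinearMap.BilinForm.finrank_orthogonal (B := bil m F) (sympBilin_nondegenerate (m := m) (F := F)) W
  rw [h1, h2, finrank_fintype_fun_eq_card, Fintype.card_sum, Fintype.card_fin]
  omega

theorem Orth_nd {W : Submodule F (Fin m ⊕ Fin m → F)} (hW : IsNondegenerateOn (sympForm m F) W) :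
    (LinearMap.BilinForm.restrict (bil m F) (Orth W)).Nondegenerate := by
  rw [LinearMap.BilinForm.restrict_nondegenerate_iff_isCompl_orthogonal isRefl,
    LinearMap.BilinForm.orthogonal_orthogonal sympBilin_nondegenerate isRefl]
  exact (isCompl_Orth hW).symm

end ortho

end Cfsg.Agent.H505.Rs
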