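import Cfsg.Agent.H505.Rs.Hom

/-!
# S3691: the stabiliser of a nondegenerate plane, `BoxN2` (helper505)
-/

set_option autoImplicit false
set_option linter.unusedSectionVars false

open Cfsg Cfsg.Geo Module Cfsg.Agent.ClassicalGeometry.SympBasic
open scoped MatrixGroups Matrix

namespace Cfsg.Agent.H505.Rs

section act

variable {F : Type*} [Field F] {m : ℕ} (C : Subgroup (GL (Fin m ⊕ Fin m) F))

/-- the action of a matrix group -/
noncomputable def actV : C →* Module.End F (Fin m ⊕ Fin m → F) :=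
  (MonoidHomClass.toMonoidHom (Matrix.toLinAlgEquiv' : Matrix (Fin m ⊕ Fin m) (Fin m ⊕ Fin m) F ≃ₐ[F] _)).comp
    ((glToMat (Fin m ⊕ Fin m) F).comp C.subtype)

theorem actV_apply (c : C) (x : Fin m ⊕ Fin m → F) : actV C c x = c.1.1 *ᵥ x := rfl

variable {C}

theorem actV_form (hC : C ≤ spGL m F) (c : C) (x y : Fin m ⊕ Fin m → F) :
    sympForm m F (actV C c x) (actV C c y) = sympForm m F x y := hC c.2 x y

theorem actV_inj {c : C} (h : ∀ x, actV C c x = x) : c = 1 := by
  apply Subtype.ext
  apply Units.ext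
  apply (Matrix.toLinAlgEquiv' : Matrix (Fin m ⊕ Fin m) (Fin m ⊕ Fin m) F ≃ₐ[F] _).injective
  refine LinearMap.ext fun x => ?_
  have h1 : (Matrix.toLinAlgEquiv' : Matrix (Fin m ⊕ Fin m) (Fin m ⊕ Fin m) F ≃ₐ[F] _) ((1 : C).1.1) = 1 := map_one _
  rw [h1]
  exact h x

/-- the action on an invariant subspace -/
noncomputable def actS (S : Submodule F (Fin m ⊕ Fin m → F)) (hS : ∀ c : C, ∀ x ∈ S, actV C c x ∈ S) :
    C →* Module.End F S where
  toFun c := (actV C c).restrict (hS c)
  map_one' := by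
    refine LinearMap.ext fun x => Subtype.ext ?_
    change actV C 1 x = x
    rw [map_one]
    rfl
  map_mul' c d := by
    refine LinearMap.ext fun x => Subtype.ext ?_
    change actV C (c * d) x = actV C c (actV C d x)
    rw [map_mul]
    rfl

theorem actS_apply (S : Submodule F (Fin m ⊕ Fin m → F)) (hS : ∀ c : C, ∀ x ∈ S, actV C c x ∈ S) (c : C) (x : S) :
    ((actS S hS c x : S) : Fin m ⊕ Fin m → F) = actV C c x := rfl

end act

theorem boxN2 : H659.Rs.BoxN2 := by
  intro F _ _ m hm W h2 hW C hC hCW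
  have hWs : ∀ c : C, ∀ x ∈ W, actV C c x ∈ W := fun c x hx => (hCW c.2 x).1 hx
  have hinv : ∀ (c : C) (x : Fin m ⊕ Fin m → F), actV C c (actV C c⁻¹ x) = x := by
    intro c x
    rw [← Module.End.mul_apply, ← map_mul, mul_inv_cancel, map_one, Module.End.one_apply]
  have hUs : ∀ c : C, ∀ x ∈ Orth W, actV C c x ∈ Orth W := by
    intro c x hx
    rw [mem_Orth]
    intro w hw
    rw [← hinv c w, actV_form hC]
    exact hx _ (hWs _ _ hw)
  obtain ⟨φ, hφ, hφ1⟩ := exists_hom (LinearMap.BilinForm.restrict (bil m F) (Orth W)) (fun x => sympForm_self _)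
    (Orth_nd hW) (finrank_Orth h2) (actS (Orth W) hUs) (fun h x y => actV_form hC h x y)
  obtain ⟨ψ, hψ, hψ1⟩ := exists_hom (k := 1) (LinearMap.BilinForm.restrict (bil m F) W) (fun x => sympForm_self _)
    (restrict_nd hW) (by rw [h2]) (actS W hWs) (fun h x y => actV_form hC h x y)
  refine ⟨φ.range, Nat.card φ.ker, ?_, ?_, ?_⟩
  · rintro _ ⟨c, rfl⟩
    exact hφ c
  · rw [← Nat.card_congr (QuotientGroup.quotientKerEquivRange φ).toEquiv, mul_comm]
    exact Subgroup.card_eq_card_quotient_mul_card_subgroup φ.ker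
  · -- the kernel acts faithfully on the plane
    let χ : φ.ker →* spGL 1 F := (ψ.comp φ.ker.subtype).codRestrict (spGL 1 F) fun c => hψ _
    have hχ : Function.Injective χ := by
      rw [injective_iff_map_eq_one]
      rintro ⟨c, hc⟩ h
      have h3 : ψ c = 1 := congrArg Subtype.val h
      have h4 := (hψ1 c).1 h3
      have h5 := (hφ1 c).1 hc
      apply Subtype.ext
      change c = 1
      refine actV_inj fun x => ?_
      have h6 : x ∈ W ⊔ Orth W := by
        rw [(isCompl_Orth hW).sup_eq_top]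
        exact Submodule.mem_top
      obtain ⟨w, hw, u, hu, rfl⟩ := Submodule.mem_sup.1 h6
      have e1 : actV C c w = w := by
        have := congrArg (fun T : Module.End F W => ((T ⟨w, hw⟩ : W) : Fin m ⊕ Fin m → F)) h4
        exact this
      have e2 : actV C c u = u := by
        have := congrArg (fun T : Module.End F (Orth W) => ((T ⟨u, hu⟩ : Orth W) : Fin m ⊕ Fin m → F)) h5
        exact this
      rw [map_add, e1, e2]
    rw [← card_spGL_one (F := F)]
    exact Subgroup.card_dvd_of_injective χ hχ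

end Cfsg.Agent.H505.Rs
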